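import Cfsg.Agent.Lib.Chev.ElOrd
import Cfsg.Agent.Lib.Grp.OutP

/-! The group `E₇(2)` has no element of order 65. -/

namespace Cfsg.Lib.Chev.E7o65

open Finset RootSys PreSys Cfsg.Lib.Alg Cfsg.Lie Matrix Cfsg.Lib.BN

abbrev tm (X : List (List ℤ)) : Matrix (Fin 7) (Fin 7) ℤ := Matrix.of (toM 7 7 X)

def m0 : List (List ℤ) := [[0, 1, 0, 0, 0, -1, 1], [0, 0, 1, 0, 0, -1, 1], [1, 1, 0, 0, 0, -1, 1],
  [0, 1, 1, 0, 0, -1, 1], [0, 0, 0, 1, 0, -1, 1], [0, 0, 0, 0, 1, -1, 1], [0, 0, 0, 0, 0, 0, 1]]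

def y0 : Fin 7 → ℤ := toV 7 [4, 9, 6, 7, 3, 1, 0]

def lL : List (List (List ℤ) × List (List ℤ) × ℤ) := [
  ([[0, 1, 0, 0, 0, -1, 1], [0, 0, 1, 0, 0, -1, 1], [1, 1, 0, 0, 0, -1, 1], [0, 1, 1, 0, 0, -1, 1], [0, 0, 0, 1, 0, -1, 1], [0, 0, 0, 0, 1, -1, 1], [0, 0, 0, 0, 0, 0, 1]],
    [[51, 28, 11, -6, -12, -24, 48], [14, 63, 28, -7, -14, -28, 56], [31, 42, 62, -9, -18, -36, 72], [21, 49, 42, 35, -21, -42, 84], [9, 21, 18, 15, 30, -31, 62], [3, 7, 6, 5, 10, 20, 51], [0, 0, 0, 0, 0, 0, 91]], -91),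
  ([[1, 1, 0, -1, 1, -1, 0], [1, 0, 1, -1, 1, -1, 0], [2, 1, 0, -1, 1, -1, 0], [2, 1, 1, -2, 2, -1, -1], [2, 0, 0, -1, 2, -1, -1], [1, 0, 0, -1, 2, -1, 0], [1, 0, 0, -1, 1, 0, 0]],
    [[99, 36, 3, -30, 18, -42, 6], [57, 81, 23, -35, 21, -49, 7], [90, 54, 63, -45, 27, -63, 9], [105, 63, 28, -7, 51, -80, -22], [84, 27, -1, -29, 111, -64, -41], [54, 9, -9, -27, 63, 9, -18], [39, 0, -13, -26, 39, -13, 52]], -117),
  ([[0, 1, 0, 0, 0, -1, 1], [0, 0, 0, 1, 0, -2, 1], [1, 1, -1, 1, 0, -2, 1], [0, 1, -1, 2, 0, -3, 1], [0, 0, -1, 2, 0, -2, 1], [0, 0, -1, 1, 1, -2, 1], [0, 0, -1, 1, 0, -1, 1]],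
    [[60, 36, 3, 9, -21, -42, 45], [5, 81, 10, 30, -31, -62, 33], [25, 54, 50, 33, -38, -76, 48], [1, 63, 2, 123, -53, -106, 30], [-7, 27, -14, 75, 20, -77, 24], [-11, 9, -22, 51, -2, -4, 21], [-13, 0, -26, 39, -13, -26, 78]], -117),
  ([[1, 1, 0, -1, 1, -1, 0], [1, 0, 0, 0, 1, -2, 0], [2, 1, -1, 0, 1, -2, 0], [2, 1, -1, 0, 2, -3, -1], [2, 0, -1, 0, 2, -2, -1], [1, 0, -1, 0, 2, -2, 0], [1, 0, -1, 0, 1, -1, 0]],
    [[90, 28, 11, -45, 27, -24, 9], [40, 63, 15, -20, 12, -41, 4], [70, 42, 49, -35, 21, -49, 7], [73, 49, 16, 9, 31, -68, -20], [74, 21, 5, -37, 95, -44, -29], [42, 7, -7, -21, 49, 7, -14], [26, 0, -13, -13, 26, -13, 39]], -91),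
  ([[-1, 1, 1, 0, -1, 0, 0], [-1, 0, 2, 0, -1, 0, 0], [-1, 1, 2, 0, -2, 1, -1], [-2, 1, 3, 0, -2, 1, -1], [-2, 0, 2, 1, -2, 1, -1], [-2, 0, 2, 0, -1, 1, -1], [-1, 0, 1, 0, -1, 1, 0]],
    [[47, 36, 42, -17, -34, -3, 6], [-8, 81, 75, -22, -44, 3, -6], [-1, 54, 141, -32, -64, 15, -30], [-25, 63, 132, 19, -79, 24, -48], [-33, 27, 90, -3, -6, 27, -54], [-37, 9, 69, -14, -28, 87, -57], [-26, 0, 39, -13, -26, 39, 39]], -117),
  ([[0, 1, 1, -1, 0, 0, -1], [0, 0, 2, -1, 0, 0, -1], [0, 1, 2, -1, -1, 1, -2], [0, 1, 3, -2, 0, 1, -3], [0, 0, 2, -1, 0, 1, -3], [-1, 0, 2, -1, 0, 1, -2], [0, 0, 1, -1, 0, 1, -1]],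
    [[51, 28, 24, -19, -12, -11, -4], [1, 63, 54, -20, -27, -2, -9], [-8, 42, 114, -22, -57, 16, -19], [-5, 49, 94, 9, -47, 10, -46], [-4, 21, 57, -11, 17, 8, -55], [-36, 7, 58, -8, -29, 72, -40], [-13, 0, 26, -13, -13, 26, 26]], -91),
  ([[-1, 1, 1, 0, -1, 0, 0], [-1, 0, 1, 1, -1, -1, 0], [-1, 1, 1, 1, -2, 0, -1], [-2, 1, 1, 2, -2, -1, -1], [-2, 0, 1, 2, -2, 0, -1], [-2, 0, 1, 1, -1, 0, -1], [-1, 0, 0, 1, -1, 0, 0]],
    [[38, 28, 24, -6, -25, -11, 9], [1, 63, 15, 19, -27, -41, 17], [5, 42, 75, 4, -44, -23, -6], [-5, 49, 16, 87, -47, -68, 6], [-17, 21, 18, 41, 4, -31, -16], [-23, 7, 19, 18, -16, 33, -27], [-13, 0, -13, 26, -13, -13, 52]], -91),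
  ([[0, 1, 1, -1, 0, 0, -1], [0, 0, 1, 0, 0, -1, -1], [0, 1, 1, 0, -1, 0, -2], [0, 1, 1, 0, 0, -1, -3], [0, 0, 1, 0, 0, 0, -3], [-1, 0, 1, 0, 0, 0, -2], [0, 0, 0, 0, 0, 0, -1]],
    [[60, 36, 42, -30, -21, -3, -7], [18, 81, 36, -9, -18, -36, -6], [12, 54, 102, -6, -51, -24, -17], [27, 63, 54, 45, -27, -54, -48], [6, 27, 51, -3, 33, -12, -67], [-24, 9, 30, 12, -15, 48, -44], [0, 0, 0, 0, 0, 0, 39]], -117)]

def sS : List (List (List ℤ)) := [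
  [[1, 0, 0, 0, 0, 0, 0], [1, 1, 0, -1, 1, 0, -1], [1, 0, 1, -1, 1, 0, -1], [2, 0, 0, -1, 2, 0, -2], [1, 0, 0, -1, 2, 0, -1], [1, 0, 0, -1, 1, 1, -1], [1, 0, 0, -1, 1, 0, 0]],
  [[1, 0, -1, 1, 0, -1, 0], [0, 1, -1, 1, 0, -1, 0], [0, 0, -1, 2, 0, -2, 0], [0, 0, -2, 3, 0, -2, 0], [0, 0, -2, 2, 1, -2, 0], [0, 0, -2, 2, 0, -1, 0], [0, 0, -1, 1, 0, -1, 1]],
  [[0, 0, 1, 0, -1, 1, -1], [-1, 1, 1, 0, -1, 1, -1], [-1, 0, 2, 0, -1, 1, -1], [-2, 0, 2, 1, -2, 2, -2], [-2, 0, 2, 0, -1, 2, -2], [-1, 0, 1, 0, -1, 2, -1], [-1, 0, 1, 0, -1, 1, 0]]]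

theorem clos : ∀ a ∈ lL, ∀ s ∈ sS, ∃ b ∈ lL, tm a.1 * tm s = tm b.1 := by decide +kernel

theorem cert : ∀ a ∈ lL, tm a.2.1 * (tm a.1 - (2 : ℤ) • 1) = a.2.2 • 1 ∧ ¬ (5 : ℤ) ∣ a.2.2 := by
  decide +kernel

theorem base : ∃ b ∈ lL, tm m0 = tm b.1 := by decide +kernel

theorem roots : ∀ r : Fin 126, (13 : ℤ) ∣ ∑ i : Fin 7, y0 i * caN chevE7 i r → ∃ s ∈ sS,
    (Matrix.of fun i j : Fin 7 => (if i = j then 1 else 0) - caN chevE7 j r * coN chevE7 r i) =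
      tm s := by
  decide +kernel

theorem eig : ∀ i, (13 : ℤ) ∣ (tm m0 *ᵥ y0) i - y0 i * 2 := by decide +kernel

/-- The root system of type `E₇`. -/
noncomputable abbrev RE : RootSys (Fin 7) (Fin 126) := checkedE7.R

theorem wM_m0 : RE.wM (wp RE.sref [0, 1, 2, 3, 4, 5]) = tm m0 := by
  rw [IsCartan.wM_wp (n := 7) (R := RE) (isCartanE7 checkedE7) (B := cartanE7) (by decide +kernel)]
  decide +kernel

theorem pair_eq (i : Fin 7) (r : Fin 126) : RE.pair (RE.simple i) r = caN chevE7 i r :=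
  ((caN_eq chevE7 i r).trans (checkedE7.cartan_eq i r)).symm

theorem wM_refl' (r : Fin 126) : RE.wM (RE.refl r) =
    Matrix.of fun i j : Fin 7 => (if i = j then 1 else 0) - caN chevE7 j r * coN chevE7 r i := by
  ext i j
  rw [wM_apply, co_refl, co_simple, pair_eq, Pi.sub_apply, Pi.single_apply]
  rfl

theorem mem_lL {u : Equiv.Perm (Fin 126)} (hu : u ∈ RE.WS {r | (13 : ℤ) ∣ RE.ev r y0}) :
    ∃ b ∈ lL, tm m0 * RE.wM u = tm b.1 := by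
  have key : ∀ r, (13 : ℤ) ∣ RE.ev r y0 → ∀ u : Equiv.Perm (Fin 126), RE.IsAut u →
      (∃ b ∈ lL, tm m0 * RE.wM u = tm b.1) → ∃ b ∈ lL, tm m0 * RE.wM (u * RE.refl r) = tm b.1 :=
    fun r hr u hu ⟨b, hb, e⟩ => by
      obtain ⟨s, hs, e'⟩ := roots r (by simpa only [ev_apply, pair_eq] using hr)
      rw [hu.wM_mul, ← mul_assoc, e, wM_refl', e']
      exact clos b hb s hs
  induction hu using Subgroup.closure_induction_right with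
  | one => rw [wM_one, mul_one]; exact base
  | mul_right x hx y hy ih =>
    obtain ⟨r, hr, rfl⟩ := hy
    exact key r hr x (isAut_of_mem_W (WS_le_W _ hx)) ih
  | mul_inv_cancel x hx y hy ih =>
    obtain ⟨r, hr, rfl⟩ := hy
    rw [refl_inv]
    exact key r hr x (isAut_of_mem_W (WS_le_W _ hx)) ih

variable {T : ChevTab RE} {k : Type*} [Field k] {G : Type*} [Group G] {C : ChevSys RE k G}
  {φ : MulAut G} (h : C.Alg T 2 φ) [CharP k 2] [IsAlgClosed k]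
include h

theorem no65 (hc : ¬ 13 * 13 ∣ Nat.card (fix (φ ^ 1))) (x : fix (φ ^ 1)) : orderOf x ≠ 5 * 13 := by
  intro hx
  have := h.frob.finite 1 one_pos
  have hw0 := wp_mem_W (R := RE) [0, 1, 2, 3, 4, 5]
  have hM := wM_m0
  generalize wp RE.sref [0, 1, 2, 3, 4, 5] = w0 at hw0 hM
  have ha0 := isAut_of_mem_W hw0
  obtain ⟨g, hg⟩ := h.exists_nw_lang (isSt_pow φ one_pos) (RE.W.inv_mem hw0)
  obtain ⟨ζ, hζ, -⟩ := exists_primitive (k := k) (m := 13) (by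
    rw [Ne, CharP.cast_eq_zero_iff k 2]; norm_num)
  set c0 : Fin 7 → kˣ := fun i => ζ ^ y0 i with hc0
  have h3 : mAct (RE.wM w0) c0 = c0 ^ 2 ^ 1 := by
    rw [hc0, mAct_zpow, hM]
    ext j : 1
    rw [Pi.pow_apply, ← zpow_natCast, ← _root_.zpow_mul, zpow_eq_zpow_iff_modEq, hζ]
    exact (Int.modEq_iff_dvd.2 (eig j)).symm
  have h4 : c0 ∈ (mAct (RE.wM w0⁻¹ * ((2 ^ 1 : ℕ) : ℤ) • 1 - 1) : (Fin 7 → kˣ) →* _).ker := by
    rw [ha0.inv.mem_ker_iff, inv_inv, h3]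
  have : Fact (Nat.Prime 13) := ⟨by norm_num⟩
  have h5 : orderOf c0 = 13 := orderOf_eq_prime
    (by ext j : 1
        rw [Pi.pow_apply, hc0, ← zpow_natCast, zpow_comm, zpow_natCast, ← hζ, pow_orderOf_eq_one,
          _root_.one_zpow, Pi.one_apply])
    fun e => by
      have := congrFun e 5
      simp only [hc0, show y0 5 = 1 from rfl, zpow_one, Pi.one_apply] at this
      rw [this, orderOf_one] at hζ
      omega
  obtain ⟨b, m, hm, hm0, e⟩ := Grp.exists_conj_eq_pow (p := 13) (by norm_num)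
    (x := h.twTor (h.pow_tor' 1) hg ⟨c0, h4⟩) (y := x ^ 5)
    (by rw [orderOf_injective _ (h.twTor_injective _ hg), Subgroup.orderOf_mk, h5])
    (by rw [orderOf_pow_of_dvd (by norm_num) (by rw [hx]; norm_num), hx]) hc
  rw [← Subgroup.orderOf_coe] at hx
  obtain ⟨a, c, w, hw, e1, h6, h7⟩ := h.exists_w_of_fix x.2 (by rw [hx]; norm_num)
  have e2 := congrArg Subtype.val e
  rw [← map_pow, ChevSys.Alg.twTor_apply, Subgroup.coe_mul, Subgroup.coe_mul, Subgroup.coe_pow, e1,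
    conj_pow, ← map_pow, Subgroup.coe_inv, Subgroup.coe_pow] at e2
  obtain ⟨v, hv, e3⟩ := h.faithful.exists_mAct_of_conj h.hMul h.inj (h.mem (g⁻¹ * b * a))
    (c := c ^ 5) (c' := c0 ^ m) (by
      have : h.tor (c0 ^ m) = g⁻¹ * (b * (a * h.tor (c ^ 5) * a⁻¹) * (b : G)⁻¹) * g := by
        rw [e2]; group
      rw [show h.hMul.torus (c0 ^ m) = _ from this]
      group)
  have hav := isAut_of_mem_W hv
  have haw := isAut_of_mem_W hw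
  have h8 : mAct (RE.wM (v * w * v⁻¹)) (mAct (RE.wM v) c) = mAct (RE.wM v) c ^ 2 ^ 1 := by
    rw [(hav.mul haw).wM_mul, hav.wM_mul, mAct_mul, mAct_mul, ← mAct_mul (RE.wM v⁻¹),
      hav.wM_inv_mul, mAct_one, h7, map_pow]
  have h9 : orderOf (mAct (RE.wM v) c) = 5 * 13 := by
    rw [orderOf_injective _ (Function.LeftInverse.injective (g := mAct (RE.wM v⁻¹)) fun d => by
      rw [← mAct_mul, hav.wM_inv_mul, mAct_one]), h6, hx]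
  rw [map_pow] at e3
  have hw' := mul_mem (mul_mem hv hw) (inv_mem hv)
  generalize v * w * v⁻¹ = w' at h8 hw'
  generalize mAct (RE.wM v) c = d at h8 h9 e3
  obtain ⟨t, ht⟩ := exists_pow_eq_self_of_coprime (x := c0) (n := m) (by
    rw [h5]; exact ((Nat.coprime_of_lt_prime hm0 hm (by norm_num))).symm)
  have h10 : mAct (RE.wM (w0⁻¹ * w')) c0 = c0 := by
    have h11 : mAct (RE.wM w') c0 = c0 ^ 2 ^ 1 := by
      rw [← ht, ← e3, map_pow, map_pow, h8, pow_right_comm d, pow_right_comm (d ^ 5)]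
    rw [ha0.inv.wM_mul, mAct_mul, h11, ← h3, ← mAct_mul, ha0.wM_inv_mul, mAct_one]
  have h11 := mem_WS_of_mAct (h.isOfFinOrder c0) (mul_mem (inv_mem hw0) hw') h10
  obtain ⟨B, hB, e4⟩ := mem_lL (WS_mono (fun r (hr : RE.chr c0 r = 1) => by
    rw [hc0, chr_zpow, ← orderOf_dvd_iff_zpow_eq_one, hζ] at hr
    exact hr) h11)
  rw [← hM, ← ha0.wM_mul, mul_inv_cancel_left] at e4
  obtain ⟨e5, h12⟩ := cert B hB
  have h13 := congrArg (fun N => mAct N (d ^ 13)) e5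
  simp only [mAct_mul, mAct_sub, mAct_smul, mAct_one, ← e4, map_pow, h8] at h13
  have h14 : orderOf (d ^ 13) = 5 := by
    rw [orderOf_pow_of_dvd (by norm_num) (by rw [h9]; norm_num), h9]
  refine h12 ?_
  have h15 : (d ^ 13) ^ B.2.2 = 1 := by
    rw [← zpow_natCast, zpow_comm, zpow_natCast, ← h13, pow_one, zpow_ofNat, div_self', map_one,
      one_pow]
  rw [← orderOf_dvd_iff_zpow_eq_one, h14] at h15
  exact h15

end Cfsg.Lib.Chev.E7o65
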