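import Cfsg.Agent.Lib.Chev.Gen2
import Cfsg.Agent.Lib.Chev.ClTypes

/-!
Chevalley groups of types `B`, `C`, `D` over finite fields are generated by two elements.
-/

namespace Cfsg.Lib.Chev

open RootSys PreSys Cfsg.Lib.BN List

variable {n : ℕ} {Φ : Type} {R : RootSys (Fin n) Φ} {F : Type*} [Field F] {G : Type*} [Group G]

theorem four_le_card [Finite F] (h : ∃ x : F, x ≠ 0 ∧ x ≠ 1) (h2 : (2 : F) = 0) :
    4 ≤ Nat.card F := by
  classical
  obtain ⟨x, h0, h1⟩ := h
  have h3 : x + 1 ≠ 0 := fun e => h1 (by linear_combination e - h2)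
  have := Finset.card_le_card_of_injOn (f := id) (s := {0, 1, x, x + 1})
    (t := (Set.finite_univ (α := F)).toFinset) (by simp [Set.MapsTo]) (Set.injOn_id _)
  rwa [Finset.card_insert_of_notMem (by simp [h0.symm, h3.symm]), Finset.card_insert_of_notMem
    (by simp [h0, h1.symm]), Finset.card_pair (by simp), ← Set.ncard_eq_toFinset_card,
    Set.ncard_univ] at this

namespace RootSys

theorem not_between_of_orth {i j : Fin n} (h : R.A i j = 0) (k : Φ) :
    ¬ R.Between (R.simple i) (R.simple j) k := fun hk => by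
  have h1 := (hk.of_orth (by rwa [pair_simple_simple])).1
  refine α_ne_sub_simple (R := R) (i := i) (j := j) (by rintro rfl; simp [A_diag] at h)
    (R.sref i k) ?_
  rw [α_sref', pair_of_add h1, h1, pair_self, pair_simple_simple, h]
  module

theorem IsAut.pair_inv {w : Equiv.Perm Φ} (hw : R.IsAut w) (r s : Φ) :
    R.pair r (w s) = R.pair (w⁻¹ r) s := by rw [← hw.pair (w⁻¹ r), apply_inv]

variable (R) in
/-- The product of the simple reflections from the `i`-th on. -/
noncomputable def cox (i : ℕ) : Equiv.Perm Φ := wp R.sref ((finRange n).drop i)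

theorem cox_mem (i : ℕ) : R.cox i ∈ R.W := wp_mem_W _

theorem cox_eq (i : Fin n) : R.cox i = R.sref i * R.cox (i + 1) := by
  rw [cox, drop_eq_getElem_cons (by simp), wp_cons]
  simp [cox]

theorem cox_last {i : ℕ} (h : n ≤ i) : R.cox i = 1 := by
  rw [cox, drop_eq_nil_of_le (by simpa), wp_nil]

theorem cox_of_orth {i : ℕ} {r : Φ} (h : ∀ k : Fin n, i ≤ k → R.pair (R.simple k) r = 0) :
    R.cox i r = r := wp_of_orth fun k hk => h k (by
  obtain ⟨j, h1, rfl⟩ := mem_drop_iff_getElem.1 hk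
  simp)

theorem cox_zero_apply (i : ℕ) {r s : Φ} (e : R.cox i r = s)
    (h : ∀ k : Fin n, k < i → R.pair (R.simple k) s = 0) : R.cox 0 r = s := by
  rw [cox, drop_zero, ← take_append_drop i (finRange n), wp_append, Equiv.Perm.mul_apply, ← cox, e]
  refine wp_of_orth fun k hk => h k ?_
  obtain ⟨j, h1, rfl⟩ := mem_take_iff_getElem.1 hk
  simpa using (lt_min_iff.1 h1).1

theorem cox_simple {i j : Fin n} (h : i.val + 1 = j) (h1 : R.A i j = -1) (h2 : R.A j i = -1)
    (h3 : ∀ k, j < k → R.A k i = 0) (h4 : ∀ k < i, R.A k j = 0) :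
    R.cox 0 (R.simple i) = R.simple j := by
  refine cox_zero_apply i ?_ (by simpa [pair_simple_simple])
  rw [cox_eq, h, cox_eq, Equiv.Perm.mul_apply, Equiv.Perm.mul_apply,
    cox_of_orth (by simpa [pair_simple_simple]), sref_sref_bond h1 h2]

theorem cox_inv_last {q r : Fin n} (h : q.val + 1 = r) (h' : r.val + 1 = n)
    (h1 : R.A q r * R.A r q = 2) (h2 : ∀ k < q, R.A k r = 0) :
    (R.cox 0)⁻¹ (R.simple r) = R.sref q (R.simple r) := by
  rw [Equiv.Perm.inv_eq_iff_eq, eq_comm]
  refine cox_zero_apply q ?_ (by simpa [pair_simple_simple])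
  rw [cox_eq, h, cox_eq, cox_last h'.ge, mul_one, Equiv.Perm.mul_apply,
    show R.sref r (R.sref q (R.simple r)) = R.sref q (R.simple r) from wp_singleton R.sref r ▸
      wp_of_orth (by simp [← refl_simple, pair_refl, pair_simple_simple, h1, A_diag]), sref_sref]

end RootSys

namespace ChevSys

variable {C : ChevSys R F G} {K : Subgroup G}

theorem rs_chain (hc : R.cox 0 ∈ C.WK K) {q : Fin n}
    (h : ∀ i j : Fin n, i.val + 1 = j → j ≤ q → R.cox 0 (R.simple i) = R.simple j) {i j : Fin n}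
    (hi : i ≤ q) (hj : j ≤ q) (h' : C.RS K (R.simple i)) : C.RS K (R.simple j) := by
  have : ∀ m (hm : m ≤ q.val), C.RS K (R.simple ⟨m, by omega⟩) ↔
      C.RS K (R.simple ⟨0, by omega⟩) := fun m hm => by
    induction m with
    | zero => rfl
    | succ m ih =>
      rw [← ih (by omega), ← h ⟨m, by omega⟩ _ rfl hm]
      exact ⟨(·.of_map hc), (·.map hc)⟩
  exact (this j hj).2 ((this i hi).1 h')

variable [Finite Φ] {T : ChevTab R} (hT : T.StrongComm C.x) (hR : R.NoG2)
include hT hR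

theorem RS.neg' (hc : R.cox 0 ∈ C.WK K) {r : Φ} (hr : C.RS K r) : C.RS K (R.neg r) :=
  hr.neg hT hR (nodup_finRange n) mem_finRange hc

theorem RS.sref_mem (hc : R.cox 0 ∈ C.WK K) {i : Fin n} (hi : C.RS K (R.simple i)) :
    R.sref i ∈ C.WK K := R.refl_simple i ▸ hi.refl_mem (hi.neg' hT hR hc)

theorem sref_mem_of_ne (hc : R.cox 0 ∈ C.WK K) (k : Fin n)
    (h : ∀ i, i ≠ k → C.RS K (R.simple i)) (i : Fin n) : R.sref i ∈ C.WK K := by
  rcases eq_or_ne i k with rfl | e
  · exact sref_mem_of_wp (nodup_finRange n) (mem_finRange i) hc fun i hi =>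
      (h i hi).sref_mem hT hR hc
  · exact (h i e).sref_mem hT hR hc

theorem grp_le_of_rs (hc : R.cox 0 ∈ C.WK K) (k : Fin n) (h : ∀ i, i ≠ k → C.RS K (R.simple i))
    (h' : C.RS K (R.simple k)) : C.grp ≤ K :=
  have : ∀ i, C.RS K (R.simple i) := fun i => (em (i = k)).elim (· ▸ h') (h i)
  C.grp_le_of_simple this fun i => (this i).neg' hT hR hc

variable [Finite F] (htop : C.grp = ⊤)
include htop

theorem twoGen_B (hn : 2 ≤ n) (hA : R.A = (rootB n).A) (h2 : (2 : F) ≠ 0) : TwoGen G := by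
  obtain ⟨ξ, hξ⟩ := exists_big (F := F) ⟨-1, by simp, fun e => h2 (by linear_combination -e)⟩
  have hA : ∀ i j, R.A i j = _ := fun i j => (congrFun₂ hA i j).trans (A_B n i j)
  obtain ⟨q, r, e1, e2⟩ : ∃ q r : Fin n, q.val + 1 = r ∧ r.val + 1 = n :=
    ⟨⟨n - 2, by omega⟩, ⟨n - 1, by omega⟩, by simp only; omega, by simp only; omega⟩
  have a1 : R.A q r = -1 := by rw [hA]; split_ifs <;> omega
  have a2 : R.A r q = -2 := by rw [hA]; split_ifs <;> omega
  have e3 := cox_inv_last e1 e2 (by rw [a1, a2]; rfl) fun k hk => by rw [hA]; split_ifs <;> omega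
  refine twoGen_two htop (cox_mem 0) (C.h_mem_H (R.simple q) ξ) (C.acts_h _ _) (a := R.simple r)
    (b := R.simple r) (hξ _ (by simp [pair_simple_simple, a1])) (hξ _ ?_).1 (.inl rfl)
    (fun K hc hr _ => ?_) (.inl rfl)
  · simp [e3, ← refl_simple, pair_refl_right, pair_simple_simple, a1]
  refine grp_le_of_rs hT hR hc r (fun i hi => rs_chain hc (fun i j h1 h2 => cox_simple h1 ?_ ?_
    (fun k hk => ?_) fun k hk => ?_) le_rfl (by omega) (hr.long hT hR (e3 ▸ hr.map (inv_mem hc))
      (hr.sref_mem hT hR hc) a2 a1 h2)) hr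
  all_goals rw [hA]; split_ifs <;> omega

theorem twoGen_C (hn : 2 ≤ n) (hA : R.A = (rootC n).A) (hF : n = 2 → ∃ x : F, x ≠ 0 ∧ x ≠ 1) :
    TwoGen G := by
  have hA : ∀ i j, R.A i j = _ := fun i j => (congrFun₂ hA i j).trans (A_C n i j)
  obtain ⟨q, r, e1, e2⟩ : ∃ q r : Fin n, q.val + 1 = r ∧ r.val + 1 = n :=
    ⟨⟨n - 2, by omega⟩, ⟨n - 1, by omega⟩, by simp only; omega, by simp only; omega⟩
  have a1 : R.A q r = -2 := by rw [hA]; split_ifs <;> omega
  have a2 : R.A r q = -1 := by rw [hA]; split_ifs <;> omega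
  have e3 := cox_inv_last e1 e2 (by rw [a1, a2]; rfl) fun k hk => by rw [hA]; split_ifs <;> omega
  have e4 : ∀ i j : Fin n, i.val + 1 = j → j ≤ q → R.cox 0 (R.simple i) = R.simple j :=
    fun i j h1 h2 => by
      refine cox_simple h1 ?_ ?_ (fun k hk => ?_) fun k hk => ?_ <;> rw [hA] <;> split_ifs <;> omega
  have e5 : ∀ K, R.cox 0 ∈ C.WK K → ∀ j ≤ q, C.RS K (R.simple j) → ∀ i, i ≠ r →
    C.RS K (R.simple i) := fun K hc j hj h i hi => rs_chain hc e4 hj (by omega) h
  have ha := isAut_of_mem_W (R.cox_mem 0)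
  by_cases h1 : ∃ x : F, x ≠ 0 ∧ x ≠ 1
  swap
  · have a3 : R.A ⟨0, by omega⟩ r = 0 := by
      have := mt hF h1
      rw [hA]; split_ifs <;> simp only [Fin.ext_iff] at * <;> omega
    refine twoGen_of_two htop (cox_mem 0) (by simpa [or_iff_not_imp_left] using h1)
      (C.commute_of_not_between (simple_ne_neg _ _) (not_between_of_orth a3) 1 1)
      (C.commute_of_not_between (R.neg_injective.ne (R.simple_injective.ne ?_))
        (not_between_simple_neg ?_) 1 1) fun K hc h3 h4 => ?_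
    iterate 2 rintro e; simp [e, A_diag] at a3
    have h5 := e5 K hc _ (Nat.zero_le _) h3
    have h6 := sref_mem_of_ne hT hR hc r h5
    exact grp_le_of_rs hT hR hc r h5 ((h5 q (by omega)).of_two hT hR
      (by simpa [or_iff_not_imp_left] using h1) (R.refl_simple q ▸ h6 q)
      (by simp [pair_simple_simple, a1]) (by rw [pair_simple_simple, a2])
      (fun _ => R.refl_simple r ▸ (h5 q (by omega)).map (h6 r)) h4)
  obtain ⟨ξ, hξ⟩ := exists_big h1
  by_cases h2 : (2 : F) = 0
  swap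
  · refine twoGen_two htop (inv_mem (cox_mem 0)) (C.h_mem_H (R.simple r) ξ) (C.acts_h _ _)
      (a := R.simple q) (b := R.simple q) (hξ _ (by simp [pair_simple_simple, a2])) (hξ _ ?_).1
      (.inl rfl) (fun K hc hq _ => ?_) (.inl rfl)
    · simp [ha.pair_inv, e3, ← refl_simple, pair_refl_left, refl_self, pair_simple_simple, a2]
    rw [inv_mem_iff] at hc
    have h5 := e5 K hc _ le_rfl hq
    have h6 := sref_mem_of_ne hT hR hc r h5
    exact grp_le_of_rs hT hR hc r h5 (hq.long hT hR (hq.map (h6 r)) (h6 q) a1 a2 h2)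
  have h4 := four_le_card h1 h2
  have e6 : R.cox 0 (R.sref q (R.simple r)) = R.simple r := by rw [← e3, apply_inv]
  have e7 : ∀ t u, Commute (C.x (R.simple q) t) (C.x (R.sref q (R.simple r)) u) := by
    have : R.pair (R.simple q) (R.sref q (R.simple r)) = 2 := by
      simp [← refl_simple, pair_refl_right, pair_simple_simple, a1]
    exact C.commute_of_not_between (ne_neg_of_pair (by omega)) (not_between_of_two_le this.ge)
  have e8 : ∀ K, R.cox 0 ∈ C.WK K → C.RS K (R.simple q) → ((1 : F) = 1 →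
      C.RS K (R.sref q (R.simple r))) → C.grp ≤ K := fun K hc h5 h6 =>
    grp_le_of_rs hT hR hc r (e5 K hc _ le_rfl h5) (e6 ▸ (h6 rfl).map hc)
  rcases eq_or_ne q.val 0 with e | e
  · have e9 : R.cox 0 = R.sref q * R.sref r := by
      rw [← e, cox_eq, e1, cox_eq, cox_last e2.ge, mul_one]
    refine twoGen_two htop (cox_mem 0) (C.h_mem_H (R.simple r) ξ) (C.acts_h _ _)
      (hξ _ (by simp [pair_simple_simple, a2])) (hξ _ ?_).1 (.inr ⟨by
        simp [← refl_simple, pair_refl, pair_simple_simple, a1, a2], hξ _ ?_, (hξ _ ?_).1, e7⟩)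
      e8 (.inr rfl)
    all_goals rw [e9]; try simp only [mul_inv_rev, sref_inv]
    all_goals simp [h4, ← refl_simple, pair_refl, pair_simple_simple, a1, a2]
  obtain ⟨p, e9⟩ : ∃ p : Fin n, p.val + 1 = q := ⟨⟨n - 3, by omega⟩, by simp only; omega⟩
  have a3 : R.A p q = -1 := by rw [hA]; split_ifs <;> omega
  have a4 : R.A q p = -1 := by rw [hA]; split_ifs <;> omega
  have a5 : R.A p r = 0 := by rw [hA]; split_ifs <;> omega
  have e10 : (R.cox 0)⁻¹ (R.simple q) = R.simple p := by rw [← e4 p q e9 le_rfl, inv_apply]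
  have e11 := (ha.inv.comb (k := R.sref q (R.simple r)) (r := R.simple r) (s := R.simple q) (i := 1)
    (j := 2)).2 (by rw [α_sref', pair_simple_simple, a1]; module)
  refine twoGen_two htop (cox_mem 0) (C.h_mem_H (R.sref p (R.simple q)) ξ) (C.acts_h _ _)
    (hξ _ ?_) (hξ _ ?_).1 (.inr ⟨?_, hξ _ ?_, (hξ _ ?_).1, e7⟩) e8 (.inr rfl)
  all_goals try simp only [e6, pair_of_comb e11, e3, e10]
  all_goals simp [h4, ← refl_simple, pair_refl_left, pair_refl, pair_simple_simple, a1, a3, a4, a5]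

theorem twoGen_D (hn : 2 ≤ n) (h4 : 4 ≤ n) (hA : R.A = (rootD hn).A) : TwoGen G := by
  have hA : ∀ i j, R.A i j = _ := fun i j => (congrFun₂ hA i j).trans (A_D hn i j)
  obtain ⟨p, q, r, e0, e1, e2⟩ : ∃ p q r : Fin n, p.val + 1 = q ∧ q.val + 1 = r ∧ r.val + 1 = n :=
    ⟨⟨n - 3, by omega⟩, ⟨n - 2, by omega⟩, ⟨n - 1, by omega⟩, by simp only; omega,
      by simp only; omega, by simp only; omega⟩
  have a1 : R.A p q = -1 := by rw [hA]; split_ifs <;> omega
  have a2 : R.A q p = -1 := by rw [hA]; split_ifs <;> omega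
  have a3 : R.A p r = -1 := by rw [hA]; split_ifs <;> omega
  have a4 : R.A r p = -1 := by rw [hA]; split_ifs <;> omega
  have a5 : R.A q r = 0 := by rw [hA]; split_ifs <;> omega
  have a6 : R.A r q = 0 := by rw [hA]; split_ifs <;> omega
  have e4 : ∀ i j : Fin n, i.val + 1 = j → j ≤ p → R.cox 0 (R.simple i) = R.simple j :=
    fun i j h1 h2 => by
      refine cox_simple h1 ?_ ?_ (fun k hk => ?_) fun k hk => ?_ <;> rw [hA] <;> split_ifs <;> omega
  have e5 : ∀ K, R.cox 0 ∈ C.WK K → C.RS K (R.simple p) → C.RS K (R.simple r) → C.grp ≤ K :=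
    fun K hc h h' => by
      have h5 : ∀ i, i ≠ q → C.RS K (R.simple i) := fun i hi => (em (i = r)).elim (· ▸ h')
        fun e => rs_chain hc e4 le_rfl (by omega) h
      have h6 := sref_mem_of_ne hT hR hc q h5
      exact grp_le_of_rs hT hR hc q h5 (h.bond a1 a2 (h6 p) (h6 q))
  by_cases h1 : ∃ x : F, x ≠ 0 ∧ x ≠ 1
  swap
  · have a7 : R.A ⟨0, by omega⟩ r = 0 := by
      rw [hA, if_neg (by simp only [Fin.ext_iff]; omega), if_neg (by simp only; omega)]
    refine twoGen_of_two htop (cox_mem 0) (by simpa [or_iff_not_imp_left] using h1)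
      (C.commute_of_not_between (simple_ne_neg _ _) (not_between_of_orth a7) 1 1)
      (C.commute_of_not_between (R.neg_injective.ne (R.simple_injective.ne ?_))
        (not_between_simple_neg ?_) 1 1) fun K hc h3 h4 => ?_
    iterate 2 rintro e; simp [e, A_diag] at a7
    have h5 := rs_chain hc e4 (Nat.zero_le p) le_rfl h3
    exact e5 K hc h5 (h5.of_two hT hR (by simpa [or_iff_not_imp_left] using h1)
      (R.refl_simple p ▸ h5.sref_mem hT hR hc) (by simp [pair_simple_simple, a3])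
      (by rw [pair_simple_simple, a4]) (by simp [pair_simple_simple, a3]) h4)
  obtain ⟨ξ, hξ⟩ := exists_big h1
  have ha := isAut_of_mem_W (R.cox_mem 0)
  have e6 : ∀ j, (∀ k < p, R.A k j = 0) → (R.cox 0)⁻¹ (R.simple j) =
      R.sref r (R.sref q (R.sref p (R.simple j))) := fun j hj => by
    rw [Equiv.Perm.inv_eq_iff_eq, eq_comm]
    refine cox_zero_apply p ?_ (by simpa [pair_simple_simple])
    simp [cox_eq p, e0, cox_eq q, e1, cox_eq r, cox_last e2.ge]
  have e7 := e6 q fun k hk => by rw [hA]; split_ifs <;> omega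
  have e8 := e6 r fun k hk => by rw [hA]; split_ifs <;> omega
  refine twoGen_two htop (inv_mem (cox_mem 0)) (C.h_mem_H (R.simple q) ξ) (C.acts_h _ _)
    (a := R.simple p) (b := R.neg (R.simple r)) (hξ _ ?_) (hξ _ ?_).1
    (.inr ⟨?_, hξ _ ?_, (hξ _ ?_).1, C.commute_of_not_between (R.neg_injective.ne
      (R.simple_injective.ne (by omega))) (not_between_simple_neg (by omega))⟩)
    (fun K hc h h' => e5 K (inv_mem_iff.1 hc) h
      (by simpa using (h' rfl).neg' hT hR (inv_mem_iff.1 hc))) (.inr rfl)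
  all_goals try simp only [inv_inv, ha.inv.neg, ha.neg, pair_neg_right, e8, ha.pair_inv, e7]
  all_goals simp [← refl_simple, pair_refl_left, pair_refl, pair_simple_simple, a1, a2, a3, a4, a5,
    a6]

end ChevSys

end Cfsg.Lib.Chev
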