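import Cfsg.Agent.Lib.Chev.WF4

/-! Element orders `r s` in the fixed points of a Frobenius map of type `F₄`. -/

namespace Cfsg.Lib.Chev.WF4

open Finset RootSys PreSys Cfsg.Lib.Alg Cfsg.Lie Matrix Cfsg.Lib.BN

/-- The value of the quartic with coefficients `a`. -/
def fq (a : ℤ × ℤ × ℤ × ℤ) (q : ℕ) : ℤ :=
  (q : ℤ) ^ 4 + a.1 * q ^ 3 + a.2.1 * q ^ 2 + a.2.2.1 * q + a.2.2.2

theorem dvd_fq {A : Type*} [CommGroup A] {M : Matrix (Fin 4) (Fin 4) ℤ} {c : Fin 4 → A} {q : ℕ}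
    (h : mAct M c = c ^ q) {a : ℤ × ℤ × ℤ × ℤ} (ha : Kills a M) : (orderOf c : ℤ) ∣ fq a q :=
  orderOf_dvd_iff_zpow_eq_one.2 (zpow_eq_one_of_quartic h ha)

theorem det4 (M : Matrix (Fin 4) (Fin 4) ℤ) : M.det =
    M 0 0 * (M 1 1 * (M 2 2 * M 3 3 - M 2 3 * M 3 2) - M 1 2 * (M 2 1 * M 3 3 - M 2 3 * M 3 1) +
      M 1 3 * (M 2 1 * M 3 2 - M 2 2 * M 3 1)) -
    M 0 1 * (M 1 0 * (M 2 2 * M 3 3 - M 2 3 * M 3 2) - M 1 2 * (M 2 0 * M 3 3 - M 2 3 * M 3 0) +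
      M 1 3 * (M 2 0 * M 3 2 - M 2 2 * M 3 0)) +
    M 0 2 * (M 1 0 * (M 2 1 * M 3 3 - M 2 3 * M 3 1) - M 1 1 * (M 2 0 * M 3 3 - M 2 3 * M 3 0) +
      M 1 3 * (M 2 0 * M 3 1 - M 2 1 * M 3 0)) -
    M 0 3 * (M 1 0 * (M 2 1 * M 3 2 - M 2 2 * M 3 1) - M 1 1 * (M 2 0 * M 3 2 - M 2 2 * M 3 0) +
      M 1 2 * (M 2 0 * M 3 1 - M 2 1 * M 3 0)) := by
  rw [det_succ_row_zero, Fin.sum_univ_four]
  simp only [det_fin_three, submatrix_apply]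
  simp [Fin.succAbove]
  ring

variable {Φ : Type} [Fintype Φ] {R : RootSys (Fin 4) Φ} (hA : IsCartan R cartanF4)
  {T : ChevTab R} {k : Type*} [Field k] {G : Type*} [Group G] {C : ChevSys R k G} {p : ℕ}
  {φ : MulAut G} (h : C.Alg T p φ) [Fact p.Prime] [CharP k p] [IsAlgClosed k] {n : ℕ} (hn : 0 < n)
include hA

omit [Fintype Φ] in
theorem exists_det {a : ℤ × ℤ × ℤ × ℤ} (ha : a ∈ pE) (q : ℕ) :
    ∃ w ∈ R.W, fq a q ∣ (R.wM w * (q : ℤ) • 1 - 1).det := by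
  have key : ∀ (l : List (Fin 4)) (M : Matrix (Fin 4) (Fin 4) ℤ),
      Matrix.of (toM 4 4 (wordM 4 bF4 (l.map Fin.val))) = M →
        fq a q ∣ (M * (q : ℤ) • 1 - 1).det → ∃ w ∈ R.W, fq a q ∣ (R.wM w * (q : ℤ) • 1 - 1).det :=
    fun l M e hd => ⟨_, wp_mem_W l, by rw [wM_eq hA, e]; exact hd⟩
  have e1 : ∀ M : Matrix (Fin 4) (Fin 4) ℤ, M * (q : ℤ) • 1 - 1 =
      Matrix.of fun i j => q * M i j - if i = j then 1 else 0 := fun M => by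
    ext i j
    rw [Matrix.mul_smul, mul_one, Matrix.sub_apply, Matrix.smul_apply, Matrix.one_apply]
    rfl
  simp only [pE, List.mem_cons, List.not_mem_nil, or_false] at ha
  rcases ha with rfl | rfl | rfl | rfl | rfl
  · refine key [3, 1, 0] !![-1, 1, 0, 0; -1, 0, 1, 0; 0, 0, 1, 0; 0, 0, 1, -1] (by decide +kernel)
      ⟨-1, ?_⟩
    rw [e1, det4]
    simp [fq]
    ring
  · refine key [2, 1, 2, 1, 0] !![-1, 1, 0, 0; -2, 1, 0, 1; -2, 2, -1, 2; 0, 0, 0, 1]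
      (by decide +kernel) ⟨-1, ?_⟩
    rw [e1, det4]
    simp [fq]
    ring
  · refine key [2, 1, 0] !![-1, 1, 0, 0; -1, 0, 1, 0; -2, 0, 1, 1; 0, 0, 0, 1]
      (by decide +kernel) ⟨-1, ?_⟩
    rw [e1, det4]
    simp [fq]
    ring
  · refine key [3, 2, 1, 2, 1, 0] !![-1, 1, 0, 0; -2, 1, 0, 1; -2, 2, -1, 2; -2, 2, -1, 1]
      (by decide +kernel) ⟨1, ?_⟩
    rw [e1, det4]
    simp [fq]
    ring
  · refine key [3, 2, 1, 0] !![-1, 1, 0, 0; -1, 0, 1, 0; -2, 0, 1, 1; -2, 0, 1, 0]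
      (by decide +kernel) ⟨1, ?_⟩
    rw [e1, det4]
    simp [fq]
    ring

include h hn

theorem order_mul_iff {r s : ℕ} (hr : r.Prime) (hs : s.Prime) (hrs : r ≠ s) (hrp : r ≠ p)
    (hsp : s ≠ p) : (∃ x : fix (φ ^ n), orderOf x = r * s) ↔
      ∃ a ∈ pE, (r : ℤ) ∣ fq a (p ^ n) ∧ (s : ℤ) ∣ fq a (p ^ n) := by
  have hp : p.Prime := Fact.out
  refine ⟨fun ⟨x, hx⟩ => ?_, fun ⟨a, ha, h1, h2⟩ => ?_⟩
  · rw [← Subgroup.orderOf_coe] at hx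
    obtain ⟨-, c, w, hw, -, h1, h2⟩ := h.exists_w_of_fix x.2 (by
      rw [hx]
      exact Nat.Coprime.mul_left ((Nat.coprime_primes hr hp).2 hrp) ((Nat.coprime_primes hs hp).2 hsp))
    obtain ⟨a, ha, h3⟩ := kills hA hw
    have h4 := dvd_fq h2 h3
    rw [h1, hx, Nat.cast_mul] at h4
    exact ⟨a, ha, (dvd_mul_right _ _).trans h4, (dvd_mul_left _ _).trans h4⟩
  · obtain ⟨w, hw, e⟩ := exists_det hA ha (p ^ n)
    exact h.exists_order_of_det hn hw hr hs hrs (h1.trans e) (h2.trans e)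

theorem order_mul_p_iff {s : ℕ} (hs : s.Prime) (hsp : s ≠ p) :
    (∃ x : fix (φ ^ n), orderOf x = p * s) ↔ ∃ a ∈ pO, (s : ℤ) ∣ fq a (p ^ n) := by
  have hp : p.Prime := Fact.out
  refine ⟨fun ⟨x, hx⟩ => ?_, fun ⟨a, ha, h1⟩ => ?_⟩
  · rw [← Subgroup.orderOf_coe] at hx
    obtain ⟨c, w, hw, r, h1, h2, h3⟩ :=
      h.exists_root_of_order x.2 ((Nat.coprime_primes hs hp).2 hsp) hs.ne_zero hx
    obtain ⟨M, h4, a, ha, h5⟩ := kills_of_root hA hw h2 h3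
    exact ⟨a, ha, h1 ▸ dvd_fq h4 h5⟩
  have key : ∀ (l : List (Fin 4)) (M : Matrix (Fin 4) (Fin 4) ℤ),
      Matrix.of (toM 4 4 (wordM 4 bF4 (l.map Fin.val))) = M →
      (∀ i, M i 0 = if i = 0 then 1 else 0) → ∀ (y z : Fin 4 → ℤ) (N : ℤ), (s : ℤ) ∣ N →
      (∀ i, (M *ᵥ y) i - y i * (p ^ n : ℕ) = N * z i) → 2 * y 0 = y 1 → (∃ i, y i = 1) →
        ∃ x : fix (φ ^ n), orderOf x = p * s := fun l M e h0 y z N hN h2 h3 ⟨i, h4⟩ => by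
    have e' : R.wM (wp R.sref l) = M := by rw [wM_eq hA, e]
    refine h.exists_order_mul_p hn (wp_mem_W l) (θ := R.simple 0) (co_injective (R := R) ?_) hs hsp
      (fun j => by rw [e', h2]; exact hN.mul_right _) ?_ h4
    · rw [← (isAut_wp l).wM_co, e', co_simple]
      ext j
      simp [h0, Pi.single_apply]
    · simp only [ev_apply, pair_simple_simple, hA.A_eq, Fin.sum_univ_four]
      change y 0 * 2 + y 1 * -1 + y 2 * 0 + y 3 * 0 = 0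
      omega
  generalize hq : p ^ n = q at h1 key
  have h2 : (s : ℤ) ∣ q - 1 ∨ (s : ℤ) ∣ q + 1 ∨ (s : ℤ) ∣ q ^ 2 + q + 1 ∨ (s : ℤ) ∣ q ^ 2 + 1 ∨
      (s : ℤ) ∣ q ^ 2 - q + 1 := by
    have h3 := Nat.prime_iff_prime_int.1 hs
    simp only [pO, List.mem_cons, List.not_mem_nil, or_false] at ha
    rcases ha with rfl | rfl | rfl
    · rw [show fq _ q = (q - 1) * ((q + 1) * (q ^ 2 + q + 1)) by simp only [fq]; ring] at h1
      simp only [h3.dvd_mul] at h1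
      tauto
    · rw [show fq _ q = (q - 1) * ((q + 1) * (q ^ 2 + 1)) by simp only [fq]; ring] at h1
      simp only [h3.dvd_mul] at h1
      tauto
    · rw [show fq _ q = (q - 1) * ((q + 1) * (q ^ 2 - q + 1)) by simp only [fq]; ring] at h1
      simp only [h3.dvd_mul] at h1
      tauto
  rcases h2 with h2 | h2 | h2 | h2 | h2
  · refine key [] 1 (by decide +kernel) (by decide +kernel) ![0, 0, 1, 0] ![0, 0, -1, 0] _ h2
      (fun i => ?_) rfl ⟨2, rfl⟩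
    fin_cases i <;> simp
  · refine key [2] !![1, 0, 0, 0; 0, 1, 0, 0; 0, 2, -1, 1; 0, 0, 0, 1] (by decide +kernel)
      (by decide +kernel) ![0, 0, 1, 0] ![0, 0, -1, 0] _ h2 (fun i => ?_) rfl ⟨2, rfl⟩
    fin_cases i <;> simp [mulVec, dotProduct, Fin.sum_univ_four]
    ring
  · refine key [3, 2] !![1, 0, 0, 0; 0, 1, 0, 0; 0, 2, -1, 1; 0, 2, -1, 0] (by decide +kernel)
      (by decide +kernel) ![0, 0, -q, 1] ![0, 0, 1, 0] _ h2 (fun i => ?_) (by simp) ⟨3, rfl⟩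
    fin_cases i <;> simp [mulVec, dotProduct, Fin.sum_univ_four]
    ring
  · refine key [3, 1, 2, 0, 1, 2, 0, 1] !![1, -1, 0, 1; 0, -1, 0, 2; 0, -2, 1, 2; 0, -2, 1, 1]
      (by decide +kernel) (by decide +kernel) ![1, 2, 2, 1 + q] ![0, 0, 0, -1] _ h2 (fun i => ?_)
      (by simp) ⟨0, rfl⟩
    fin_cases i <;> simp [mulVec, dotProduct, Fin.sum_univ_four] <;> ring
  · refine key [2, 3, 1, 2, 0, 1, 2, 0, 1] !![1, -1, 0, 1; 0, -1, 0, 2; 0, -2, 0, 3; 0, -2, 1, 1]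
      (by decide +kernel) (by decide +kernel) ![1, 2, 2 + q, 1 + q] ![0, 0, -1, -1] _ h2
      (fun i => ?_) (by simp) ⟨0, rfl⟩
    fin_cases i <;> simp [mulVec, dotProduct, Fin.sum_univ_four] <;> ring

end Cfsg.Lib.Chev.WF4
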