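import Cfsg.Agent.Lib.Chev.AlgInst
import Cfsg.Agent.Lib.Chev.BorelTits
import Cfsg.Agent.Lib.Chev.Opp

/-!
Centraliser and normaliser of a subfield subgroup of an adjoint Chevalley group.
-/

namespace Cfsg.Lib.Chev

open RootSys PreSys

variable {ι Φ : Type} [Fintype ι] [DecidableEq ι] [Fintype Φ] {R : RootSys ι Φ} {F : Type*}
  [Field F] {G : Type*} [Group G]

namespace ChevSys.Faithful

variable {C : ChevSys R F G} (hF : C.Faithful)
include hF

theorem mem_B_of_conj_simple {g : G} (hg : g ∈ C.grp)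
    (h : ∀ i, g * C.x (R.simple i) 1 * g⁻¹ ∈ C.U) : g ∈ C.B := by
  obtain ⟨b, hb, n, w, hn, u, hu, rfl⟩ := exists_bruhat' hg
  suffices w = 1 from C.B.mul_mem (C.B.mul_mem hb ((hF.nw_mem_B_iff hn).2 this)) (C.U_le_B hu)
  refine eq_one_of_pos hn.mem_W fun i => by_contra fun hi => ?_
  obtain ⟨c, hc⟩ := hn.exists_acts
  obtain ⟨f, hf⟩ := hc.aut.inv.exists_comp (htL ι)
  have h1 := hc.inv_conj_mem (T := w ⁻¹' {r | R.IsPos r}) (fun _ h => h)
    ((Subgroup.mem_normalizer_iff''.1 (C.B_le_normalizer_U hb) _).1 (h i))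
  have h2 : u * C.x (R.simple i) 1 * u⁻¹ ∈ C.Ui i := C.XS_mono (by
    rintro r ⟨h3, h4⟩
    exact ⟨h3, by rintro rfl; exact hi h4⟩) (hF.mem_XS_inter isClosed_pos
      (hc.aut.isClosed_preimage isClosed_pos) (fun _ h => h) (f := f)
      (fun r hr => by rw [← inv_apply w r, hf]; exact hr.ht_pos)
      (C.U.mul_mem (C.U.mul_mem hu (C.x_mem_U (isPos_simple i) _)) (C.U.inv_mem hu))
      (by simpa [mul_assoc] using h1))
  have h3 : u ∈ Subgroup.normalizer (C.Ui i : Set G) :=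
    XS_le.2 (fun r hr t => C.x_mem_normalizer_Ui (.inl hr) t) hu
  exact (hF.mem_of_x_mem (S := {r | R.IsPos r ∧ r ≠ R.simple i}) (f := htL ι)
    (by simpa only [← fJ_singleton_pos_iff] using isClosed_lt _) (fun r hr => hr.1.ht_pos)
    (isPos_simple i).ht_pos one_ne_zero ((Subgroup.mem_normalizer_iff.1 h3 _).2 h2)).2 rfl

theorem eq_one_of_comm (hA : C.Adjoint) {g : G} (hg : g ∈ C.grp)
    (h : ∀ r, g * C.x r 1 * g⁻¹ = C.x r 1) : g = 1 := by
  have h1 := hF.mem_H_of_B_VH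
    (hF.mem_B_of_conj_simple hg fun i => (h _).symm ▸ C.x_mem_U (isPos_simple i) _)
    (op_B (C := C.toPreSys) ▸ hF.op.mem_B_of_conj_simple (op_grp (C := C.toPreSys) ▸ hg) fun i =>
      (h _).symm ▸ C.op.x_mem_U (isPos_simple i) _)
  obtain ⟨c, hc⟩ := C.exists_acts_of_mem_H h1
  refine hA.eq_of_acts h1 C.H.one_mem (hc.congr rfl fun s => Units.ext ?_) C.acts_one
  simpa using hF.x_inj ((hc.conj s 1).symm.trans (h s))

theorem mem_normalizer_iff_fix (hA : C.Adjoint) {σ : G →* G} {θ : F →+* F}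
    (hσ : ∀ r t, σ (C.x r t) = C.x r (θ t)) {T : ChevTab R} (hT : T.StrongComm C.x)
    {K : Subgroup G} (h1 : K ≤ C.grp) (h2 : ∀ r t, θ t = t → C.x r t ∈ K)
    (h3 : ∀ g ∈ K, σ g = g) {g : G} (hg : g ∈ C.grp) :
    g ∈ Subgroup.normalizer (K : Set G) ↔ σ g = g := by
  refine ⟨fun h => (inv_mul_eq_one.1 (hF.eq_one_of_comm hA
    (C.grp.mul_mem (C.grp.inv_mem hg) (field_mem_XS hσ hg)) fun r => ?_)).symm, fun h => ?_⟩
  · have := h3 _ ((Subgroup.mem_normalizer_iff.1 h _).1 (h2 r 1 (map_one θ)))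
    rw [map_mul, map_mul, map_inv, hσ, map_one] at this
    rw [mul_inv_rev, mul_assoc g⁻¹, mul_assoc g⁻¹, ← mul_assoc _ _ g⁻¹⁻¹, this]
    group
  let j := (θ.eqLocusField (RingHom.id F)).subtype
  have hj : ∀ t, θ t = t ↔ t ∈ j.range := fun t =>
    ⟨fun h => ⟨⟨t, h⟩, rfl⟩, by rintro ⟨u, rfl⟩; exact u.2⟩
  have h4 : (ChevSys.res hT j).grp ≤ K := XS_le.2 fun r _ t => h2 r _ t.2
  have h5 : ∀ k ∈ C.H, σ k = k → ∀ y ∈ K, k * y * k⁻¹ ∈ K := fun k hk e y hy => by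
    obtain ⟨c, hc⟩ := C.exists_acts_of_mem_H hk
    have h6 : ∀ a ∈ (ChevSys.res hT j).grp, k * a * k⁻¹ ∈ K := fun a =>
      conj_mem_of_XS fun r _ t => by
        rw [res_x, hc.conj]
        refine h2 _ _ (hF.x_inj (r := r) ?_)
        rw [← hσ, ← show _ = C.x r (R.chr c r * j t) from hc.conj r (j t), map_mul, map_mul, map_inv, e, hσ,
          (hj _).2 ⟨t, rfl⟩]
    obtain ⟨a, ha, k', hk', -, b, hb, rfl⟩ := hF.exists_res_mul hσ hT hj (h1 hy) (h3 y hy)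
    have h7 : k' ∈ K := (K.mul_mem_cancel_left (h4 ha)).1 ((K.mul_mem_cancel_right (h4 hb)).1 hy)
    have : k * (a * k' * b) * k⁻¹ = k * a * k⁻¹ * k' * (k * b * k⁻¹) := by
      rw [mul_assoc _ k⁻¹, hA.hMul.H_comm (C.H.inv_mem hk) hk']
      group
    exact this ▸ K.mul_mem (K.mul_mem (h6 a ha) h7) (h6 b hb)
  obtain ⟨a, ha, k, hk, e, b, hb, rfl⟩ := hF.exists_res_mul hσ hT hj hg h
  refine mul_mem (mul_mem (K.le_normalizer (h4 ha)) (mem_normalizer_of_conj (h5 k hk e) ?_))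
    (K.le_normalizer (h4 hb))
  simpa using h5 k⁻¹ (C.H.inv_mem hk) (by rw [map_inv, e])

end ChevSys.Faithful

end Cfsg.Lib.Chev
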